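import Cfsg.Agent.H129.CycT
import Cfsg.Agent.H129.CycRow

/-!
# S2464, `F₄(2)`: the elements of order 13 (helper197)
-/

set_option autoImplicit false

namespace Cfsg.Agent.H197.FT13

open Subgroup Cfsg.Lie

section Abs

variable {G : Type*} [Group G]

theorem isConj_pow {n x : G} (hn : n * x * n⁻¹ = x ^ 2) (j : ℕ) : IsConj x (x ^ 2 ^ j) := by
  induction j with
  | zero => rw [pow_zero, pow_one]
  | succ j ih =>
    refine ih.trans (isConj_iff.2 ⟨n, ?_⟩)
    rw [← conj_pow, hn, ← pow_mul, pow_succ, mul_comm 2]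

theorem conj_of_exact [Finite G] (hG : Cfsg.Agent.H129.CycT.CycExact G 13) {n x : G} (hn : n * x * n⁻¹ = x ^ 2)
    (hx : orderOf x = 13) {y : G} (hy : orderOf y = 13) : IsConj x y := by
  obtain ⟨T, hT, hc, hcent⟩ := hG
  have h1 : ∀ y ∈ T, orderOf y = 13 → centralizer {y} ≤ T := fun y hyT hyo => (hcent y hyT (by
    rintro rfl
    rw [orderOf_one] at hyo
    omega)).le
  obtain ⟨g, hg, -⟩ := Cfsg.Agent.H129.CycT.centralizer_conj hT (r := 13) (by norm_num) (by rw [hc]) h1 hx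
  obtain ⟨h, hh, -⟩ := Cfsg.Agent.H129.CycT.centralizer_conj hT (r := 13) (by norm_num) (by rw [hc]) h1 hy
  have hgx : orderOf (g * x * g⁻¹) = 13 := by
    rw [← hx]
    exact orderOf_injective (MulAut.conj g).toMonoidHom (MulAut.conj g).injective x
  have hle : zpowers (g * x * g⁻¹) = T := by
    refine Subgroup.eq_of_le_of_card_ge ((zpowers_le).2 hg) ?_
    rw [hc, Nat.card_zpowers, hgx]
  rw [← hle, mem_zpowers_iff] at hh
  obtain ⟨k, hk⟩ := hh
  have hk2 : (g * x * g⁻¹) ^ (k % 13) = h * y * h⁻¹ := by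
    have := zpow_mod_orderOf (g * x * g⁻¹) k
    rw [hgx] at this
    exact_mod_cast this.trans hk
  obtain ⟨m, hm⟩ : ∃ m : ℕ, (m : ℤ) = k % 13 := ⟨(k % 13).toNat, Int.toNat_of_nonneg (Int.emod_nonneg _ (by norm_num))⟩
  have hm13 : m < 13 := by
    have := Int.emod_lt_of_pos k (show (0 : ℤ) < 13 by norm_num)
    omega
  rw [← hm, zpow_natCast] at hk2
  have hm0 : m ≠ 0 := by
    rintro rfl
    rw [pow_zero] at hk2
    have : y = 1 := by
      have h3 : h * y * h⁻¹ = 1 := hk2.symm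
      simpa using h3
    rw [this, orderOf_one] at hy
    omega
  have hxy : IsConj (x ^ m) y := by
    have h4 : IsConj (x ^ m) (g * x ^ m * g⁻¹) := isConj_iff.2 ⟨g, rfl⟩
    have h5 : IsConj y (h * y * h⁻¹) := isConj_iff.2 ⟨h, rfl⟩
    rw [conj_pow] at hk2
    rw [hk2] at h4
    exact h4.trans h5.symm
  have hj : ∃ j < 12, 2 ^ j % 13 = m := by
    have : ∀ m < 13, m ≠ 0 → ∃ j < 12, 2 ^ j % 13 = m := by decide +kernel
    exact this m hm13 hm0
  obtain ⟨j, -, hj⟩ := hj
  have hxm : x ^ m = x ^ 2 ^ j := by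
    have h6 := pow_mod_orderOf x (2 ^ j)
    rw [hx, hj] at h6
    exact h6
  rw [hxm] at hxy
  exact (isConj_pow hn j).trans hxy

end Abs

/-- the group `F₄(2)` -/
abbrev GF := ↥(chevF4.group (ZMod 2))

theorem exact13 : Cfsg.Agent.H129.CycT.CycExact GF 13 :=
  Cfsg.Agent.H129.CycT.exact_F4_12 (q := 2) (ZMod.card 2) (by norm_num)

theorem cent_card {x : GF} (hx : orderOf x = 13) : Nat.card ↥(centralizer {x}) = 13 :=
  Cfsg.Agent.H129.CycT.CycExact.card_centralizer (by norm_num) dvd_rfl exact13 hx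

/-- an element of order 13 with centraliser of order 13 -/
theorem odd_cent : ∃ x : GF, orderOf x = 13 ∧ Nat.card ↥(centralizer {x}) = 13 := by
  obtain ⟨T, hT, hc, -⟩ := exact13
  have : Fact (Nat.Prime 13) := ⟨by norm_num⟩
  obtain ⟨⟨x, hxT⟩, hx⟩ := exists_prime_orderOf_dvd_card' (G := ↥T) 13 (by rw [hc])
  rw [Subgroup.orderOf_mk] at hx
  exact ⟨x, hx, cent_card hx⟩

/-- **one class of elements of order 13** -/
theorem conj_of_order {n x : GF} (hn : n * x * n⁻¹ = x ^ 2) (hx : orderOf x = 13) {y : GF} (hy : orderOf y = 13) :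
    IsConj x y :=
  conj_of_exact exact13 hn hx hy

end Cfsg.Agent.H197.FT13
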